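import Cfsg.Agent.H978.NB.Char
import Cfsg.Agent.H536.NB.Rows
import Cfsg.Agent.H813.CoSevenMain
import Cfsg.Agent.NotCT.Orders

/-!
# Nonprincipal `5`-blocks of `Co1` (helper143)

`Co1` has an element of order `35` (`C(7A) = 7 × A7`, helper813) and `5 ^ 5 ∤ |Co1|`, `7 ∤ 5 ^ j - 1` for `j = 1, 2, 3`:
the numeric criterion of helper978.
-/

set_option autoImplicit false

namespace Cfsg.Agent.H143.NB.CoOneFive

open Cfsg Cfsg.Agent.H7.NBp Cfsg.Agent.H718.NBIH Cfsg.Agent.H813.CoSevenMain Subgroup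

/-- an element of order `35` -/
theorem exists_35 : ∃ w : Spor.Co1, orderOf w = 35 := by
  have : Fact (Nat.Prime 5) := ⟨by norm_num⟩
  obtain ⟨b, hb⟩ := exists_prime_orderOf_dvd_card' (G := ↥BB) 5 (by rw [card_BB]; norm_num)
  have hb' : orderOf (b : Spor.Co1) = 5 := by rw [Subgroup.orderOf_coe, hb]
  have hpp : orderOf pp = 7 := by
    have : Fact (Nat.Prime 7) := ⟨by norm_num⟩
    exact orderOf_eq_prime pp_pow pp_ne
  have hc : Commute (b : Spor.Co1) pp := mem_centralizer_singleton_iff.1 (BB_le b.2)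
  refine ⟨(b : Spor.Co1) * pp, ?_⟩
  rw [hc.orderOf_mul_eq_mul_orderOf_of_coprime (by rw [hb', hpp]; norm_num), hb', hpp]

theorem nb_co1_five (S : Type) [Group S] [Finite S] [IsSimpleGroup S] (h : Spor.IsoCo1 S)
    (ih : IH 5 (Nat.card S)) : NB 5 S := by
  have hcard := NotCT.Orders.co1 h
  have : Fact (Nat.Prime 5) := ⟨by norm_num⟩
  refine Cfsg.Agent.H978.NB.nb_of_order (r := 7) (a := 4)
    (Cfsg.Agent.H536.NB.Rows.not_comm_of_four (by rw [hcard]; norm_num)) ih (by norm_num) (by norm_num) ?_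
    (by rw [hcard]; norm_num) ?_
  · obtain ⟨e⟩ := h
    obtain ⟨x, hx⟩ := exists_35
    refine ⟨e.symm x, ?_⟩
    have h5 : orderOf (e.symm x) = orderOf x := MulEquiv.orderOf_eq e.symm x
    rw [h5, hx]
  · intro j h5 h6
    interval_cases j <;> norm_num

end Cfsg.Agent.H143.NB.CoOneFive
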