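import Cfsg.Agent.H368.NB.Sq
import Cfsg.Agent.H978.NB.Char
import Cfsg.Agent.H978.NB.DZ
import Cfsg.Agent.H536.NB.Rows
import Cfsg.Agent.H852.IMMathieu
import Cfsg.Agent.H852.IMMathieu2
import Cfsg.Agent.H723.Spor.MOrders

/-!
# Nonprincipal `p`-blocks of the Mathieu groups, `p` odd (helper143)

`nb_m11`, `nb_m12`, `nb_m22`, `nb_m23`, `nb_m24`: the rows of S5003.

* `p³ ∤ |S|`: the Itô–Michler rows (helper852) and `NB.of_IM_sq` (helper368);
* `M12`, `p = 3`: the character of degree `54 = 12 · 9 / 2` has defect zero;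
* `M24`, `p = 3`: an element of order `15` and the numeric criterion of helper978.
-/

set_option autoImplicit false

namespace Cfsg.Agent.H143.NB.Mathieu

open Cfsg Cfsg.Agent.H33 Cfsg.Agent.H7.NBp Cfsg.Agent.H718.NBIH Cfsg.Agent.H852.IMMathieu

/-- `IM` and `p³ ∤ |S|` -/
theorem nb_of_im {p : ℕ} [hp : Fact p.Prime] {S : Type*} [Group S] [Finite S] [Nontrivial S]
    (h : p ∣ Nat.card S → IM p S) (h3 : ¬ p ^ 3 ∣ Nat.card S) : NB p S := by
  by_cases hd : p ∣ Nat.card S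
  · exact Cfsg.Agent.H368.NBSq.NB.of_IM_sq (h hd) h3
  · exact NB.of_not_dvd hd

/-- an odd prime whose cube divides `2 ^ 6 * m`, `m` cube free -/
theorem not_cube {p : ℕ} [hp : Fact p.Prime] (h2 : p ≠ 2) {n : ℕ} (l : List ℕ) (hl : l.prod = n)
    (hlp : ∀ q ∈ l, q.Prime) (hn : n ≠ 0) (hc : ∀ q ∈ l, q = 2 ∨ l.count q ≤ 2) : ¬ p ^ 3 ∣ n := by
  intro h
  have h1 : (n.primeFactorsList).Perm l := (Nat.primeFactorsList_unique hl hlp).symm
  have h3 : p ∈ l := by
    have h4 : p ∣ n := (dvd_pow_self p (by norm_num)).trans h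
    exact h1.mem_iff.1 ((Nat.mem_primeFactorsList hn).2 ⟨hp.out, h4⟩)
  have h5 : n.factorization p ≤ 2 := by
    rw [← Nat.primeFactorsList_count_eq, h1.count_eq]
    rcases hc p h3 with h6 | h6
    · exact absurd h6 h2
    · exact h6
  have h6 := (hp.out.pow_dvd_iff_le_factorization hn).1 h
  omega

theorem nb_m11 {p : ℕ} [hp : Fact p.Prime] (h2 : p ≠ 2) (S : Type) [Group S] [Finite S] [IsSimpleGroup S]
    (h : Spor.IsoM11 S) (_ih : IH p (Nat.card S)) : NB p S := by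
  refine nb_of_im (fun hd => im_m11 h hd) ?_
  obtain ⟨e⟩ := h
  rw [Nat.card_congr e.toEquiv, card_M11]
  exact not_cube h2 [2, 2, 2, 2, 3, 3, 5, 11] (by decide) (by norm_num) (by norm_num) (by decide)

theorem nb_m22 {p : ℕ} [hp : Fact p.Prime] (h2 : p ≠ 2) (S : Type) [Group S] [Finite S] [IsSimpleGroup S]
    (h : Spor.IsoM22 S) (_ih : IH p (Nat.card S)) : NB p S := by
  refine nb_of_im (fun hd => im_m22 h hd) ?_
  obtain ⟨e⟩ := h
  rw [Nat.card_congr e.toEquiv, card_M22]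
  exact not_cube h2 [2, 2, 2, 2, 2, 2, 2, 3, 3, 5, 7, 11] (by decide) (by norm_num) (by norm_num) (by decide)

theorem nb_m23 {p : ℕ} [hp : Fact p.Prime] (h2 : p ≠ 2) (S : Type) [Group S] [Finite S] [IsSimpleGroup S]
    (h : Spor.IsoM23 S) (_ih : IH p (Nat.card S)) : NB p S := by
  refine nb_of_im (fun hd => im_m23 h hd) ?_
  obtain ⟨e⟩ := h
  rw [Nat.card_congr e.toEquiv, card_M23]
  exact not_cube h2 [2, 2, 2, 2, 2, 2, 2, 3, 3, 5, 7, 11, 23] (by decide) (by norm_num) (by norm_num) (by decide)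

/-- `p³ ∣ n` for an odd prime `p` forces `p = 3` -/
theorem cube_three {p : ℕ} [hp : Fact p.Prime] (h2 : p ≠ 2) {n : ℕ} (l : List ℕ) (hl : l.prod = n)
    (hlp : ∀ q ∈ l, q.Prime) (hn : n ≠ 0) (hc : ∀ q ∈ l, q = 2 ∨ q = 3 ∨ l.count q ≤ 2) (h : p ^ 3 ∣ n) : p = 3 := by
  have h1 : (n.primeFactorsList).Perm l := (Nat.primeFactorsList_unique hl hlp).symm
  have h3 : p ∈ l := by
    have h4 : p ∣ n := (dvd_pow_self p (by norm_num)).trans h
    exact h1.mem_iff.1 ((Nat.mem_primeFactorsList hn).2 ⟨hp.out, h4⟩)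
  rcases hc p h3 with h6 | h6 | h6
  · exact absurd h6 h2
  · exact h6
  · exfalso
    have h5 : n.factorization p ≤ 2 := by
      rw [← Nat.primeFactorsList_count_eq, h1.count_eq]
      exact h6
    have h6 := (hp.out.pow_dvd_iff_le_factorization hn).1 h
    omega

/-- the character of degree `54` of `M12` has `3`-defect zero -/
theorem hasDZ_m12 : Cfsg.Agent.H665.NoPQ.HasDZ 3 Spor.M12 := by
  have hd : ∀ g ∈ Spor.M12, ∀ x ∈ (Spor.squareDodecad : Set GolayPt), g x ∈ (Spor.squareDodecad : Set GolayPt) :=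
    fun g hg x hx => Cfsg.Agent.CoThreeStd.M12.smul_mem' hg hx
  let _ := actOn Spor.M12 (Spor.squareDodecad : Set GolayPt) hd
  have hc : Nat.card (Spor.squareDodecad : Set GolayPt) = 12 := by
    rw [Nat.card_coe_set_eq, Set.ncard_coe_finset, card_dod dod_mem]
  have h1 := trans_on Spor.M12 (Spor.squareDodecad : Set GolayPt) hd 5 (by
    intro x y hx hy
    obtain ⟨g, hg, -⟩ := Cfsg.Agent.S0384.result _ dod_mem x y hx hy
    exact ⟨((g : M24) : Equiv.Perm GolayPt), ⟨(g : M24).2, g.2⟩, hg⟩)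
  have h2 : MulAction.IsMultiplyPretransitive Spor.M12 (Spor.squareDodecad : Set GolayPt) 4 :=
    MulAction.isMultiplyPretransitive_of_le (n := 5) (by norm_num) (by omega)
  have := Fintype.ofFinite Spor.M12
  obtain ⟨-, χ, hχ⟩ := Cfsg.Agent.H852.IMPerm.four (G := Spor.M12) (Spor.squareDodecad : Set GolayPt) (by omega)
  rw [hc] at hχ
  refine ⟨χ, ?_⟩
  rw [Blocks.Basic.charDegree_of_eq hχ, card_M12]
  have h54 : (12 * (12 - 3) / 2 : ℕ) = 3 ^ 3 * 2 := by norm_num
  have h95 : (95040 : ℕ) = 3 ^ 3 * 3520 := by norm_num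
  rw [h54, h95, Nat.factorization_mul (by norm_num) (by norm_num), Nat.factorization_mul (by norm_num) (by norm_num),
    Nat.Prime.factorization_pow Nat.prime_three]
  simp only [Finsupp.add_apply, Finsupp.single_eq_same]
  rw [Nat.factorization_eq_zero_of_not_dvd (by norm_num), Nat.factorization_eq_zero_of_not_dvd (by norm_num)]

theorem nb_m12 {p : ℕ} [hp : Fact p.Prime] (h2 : p ≠ 2) (S : Type) [Group S] [Finite S] [IsSimpleGroup S]
    (h : Spor.IsoM12 S) (_ih : IH p (Nat.card S)) : NB p S := by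
  by_cases h3 : p ^ 3 ∣ Nat.card S
  · obtain ⟨e⟩ := h
    rw [Nat.card_congr e.toEquiv, card_M12] at h3
    have h4 : p = 3 :=
      cube_three h2 [2, 2, 2, 2, 2, 2, 3, 3, 3, 5, 11] (by decide) (by norm_num) (by norm_num) (by decide) h3
    subst h4
    refine NB.iso e.symm ?_
    exact Cfsg.Agent.H368.NBSq.NB.of_hasDZ hasDZ_m12 (by rw [card_M12]; norm_num)
  · exact nb_of_im (fun hd => im_m12 h hd) h3

theorem nb_m24 {p : ℕ} [hp : Fact p.Prime] (h2 : p ≠ 2) (S : Type) [Group S] [Finite S] [IsSimpleGroup S]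
    (h : Spor.IsoM24 S) (ih : IH p (Nat.card S)) : NB p S := by
  by_cases h3 : p ^ 3 ∣ Nat.card S
  · have hcard : Nat.card S = 244823040 := by
      obtain ⟨e⟩ := h
      rw [Nat.card_congr e.toEquiv, Cfsg.Agent.S0364.result]
    rw [hcard] at h3
    have h4 : p = 3 := cube_three h2 [2, 2, 2, 2, 2, 2, 2, 2, 2, 2, 3, 3, 3, 5, 7, 11, 23] (by decide) (by norm_num)
      (by norm_num) (by decide) h3
    subst h4
    refine Cfsg.Agent.H978.NB.nb_of_order (r := 5) (a := 3)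
      (Cfsg.Agent.H536.NB.Rows.not_comm_of_four (by rw [hcard]; norm_num)) ih (by norm_num) (by norm_num) ?_
      (by rw [hcard]; norm_num) ?_
    · obtain ⟨e⟩ := h
      obtain ⟨x, hx⟩ := Cfsg.Agent.H723.Spor.MOrders.order15
      refine ⟨e.symm x, ?_⟩
      have h5 : orderOf (e.symm x) = orderOf x := MulEquiv.orderOf_eq e.symm x
      rw [h5, hx]
    · intro j h5 h6
      interval_cases j <;> norm_num
  · exact nb_of_im (fun hd => im_m24 h hd) h3

end Cfsg.Agent.H143.NB.Mathieu
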